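import Cfsg.Agent.H818.Gen.Defs
import Cfsg.Prelude.Def_KGroupFacts

/-!
# Generation by the centralizers of the hyperplanes: inner Sylow case (helper751, S2187)

* `elab_closure`  : commuting elements with `t ^ p = 1` generate an elementary abelian group;
* `card_Pt`       : a lower bound for its order;
* `mem_Gam`       : `y` commutes with `F`, `P = ⟨F, t⟩`: `y ∈ Γ(P)`;
* `gen_of_sylow`  : `P` an elementary abelian Sylow group of `G`, all `p`-automorphisms inner, `Γ(P) = G`.
-/

set_option autoImplicit false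

namespace Cfsg.Agent.H751.Two.Seven

open Cfsg Subgroup Cfsg.Agent.H818.Gen

section elab'

variable {G : Type*} [Group G] {p : ℕ}

/-- commuting elements with `t ^ p = 1` generate an elementary abelian group -/
theorem elab_closure {S : Set G} (h1 : ∀ a ∈ S, a ^ p = 1) (h2 : ∀ a ∈ S, ∀ b ∈ S, a * b = b * a) :
    IsElementaryAbelian p (closure S) := by
  have hc : ∀ a ∈ closure S, ∀ b ∈ closure S, a * b = b * a := by
    have h3 : closure S ≤ centralizer S := by
      rw [closure_le]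
      intro a ha
      rw [SetLike.mem_coe, mem_centralizer_iff]
      intro b hb
      exact (h2 b hb a ha)
    intro a ha b hb
    have h4 : closure S ≤ centralizer {a} := by
      rw [closure_le]
      intro c hc
      rw [SetLike.mem_coe, mem_centralizer_singleton_iff]
      exact mem_centralizer_iff.1 (h3 ha) c hc
    exact (mem_centralizer_singleton_iff.1 (h4 hb)).symm
  refine ⟨⟨⟨fun a b => Subtype.ext (hc a a.2 b b.2)⟩⟩, fun a ha => ?_⟩
  induction ha using closure_induction with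
  | mem x hx => exact h1 x hx
  | one => exact one_pow p
  | mul x y hx hy ihx ihy =>
    rw [(show Commute x y from hc x hx y hy).mul_pow, ihx, ihy, one_mul]
  | inv x hx ih => rw [inv_pow, ih, inv_one]

/-- a lower bound for the order: `t` is outside of the centralizer of an element commuting with `F` -/
theorem card_step [Finite G] [hp : Fact p.Prime] {P F : Subgroup G} (hP : IsElementaryAbelian p P) (hF : F ≤ P) {t : G}
    (ht : t ∈ P) (htF : t ∉ F) {k : ℕ} (hk : p ^ k ≤ Nat.card F) : p ^ (k + 1) ≤ Nat.card P := by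
  obtain ⟨n, hn⟩ := (elab_isPGroup hP).exists_card_eq
  obtain ⟨m, hm⟩ := (elab_isPGroup (elab_mono hF hP)).exists_card_eq
  have h1 : Nat.card F < Nat.card P := by
    refine lt_of_le_of_ne (card_le_of_le hF) fun h => htF ?_
    have : F = P := eq_of_le_of_card_ge hF h.ge
    rwa [this]
  rw [hn] at h1 ⊢
  rw [hm] at h1 hk
  have h2 : m < n := (Nat.pow_lt_pow_iff_right hp.out.one_lt).1 h1
  have h3 : k ≤ m := (Nat.pow_le_pow_iff_right hp.out.one_lt).1 hk
  exact Nat.pow_le_pow_right hp.out.pos (by omega)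

/-- the group generated by `t 0, …, t (n - 1)` -/
def Pt (t : ℕ → G) (n : ℕ) : Subgroup G := closure {g : G | ∃ j < n, g = t j}

theorem mem_Pt {t : ℕ → G} {n j : ℕ} (hj : j < n) : t j ∈ Pt t n := subset_closure ⟨j, hj, rfl⟩

theorem elab_Pt {t : ℕ → G} {n : ℕ} (h1 : ∀ j < n, t j ^ p = 1) (h2 : ∀ i < n, ∀ j < n, Commute (t i) (t j)) :
    IsElementaryAbelian p (Pt t n) := by
  refine elab_closure ?_ ?_
  · rintro _ ⟨j, hj, rfl⟩
    exact h1 j hj
  · rintro _ ⟨i, hi, rfl⟩ _ ⟨j, hj, rfl⟩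
    exact h2 i hi j hj

theorem Pt_mono {t : ℕ → G} {m n : ℕ} (h : m ≤ n) : Pt t m ≤ Pt t n :=
  closure_mono fun _ ⟨j, hj, hjt⟩ => ⟨j, hj.trans_le h, hjt⟩

/-- `y i` commutes with the `t j`, `j ≠ i`, not with `t i` : the `t j` are independent -/
theorem card_Pt [Finite G] [hp : Fact p.Prime] {t y : ℕ → G} {n : ℕ} (h1 : ∀ j < n, t j ^ p = 1)
    (h2 : ∀ i < n, ∀ j < n, Commute (t i) (t j)) (h3 : ∀ i < n, ∀ j < n, j ≠ i → Commute (t j) (y i))
    (h4 : ∀ i < n, ¬ Commute (t i) (y i)) : p ^ n ≤ Nat.card (Pt t n) := by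
  induction n with
  | zero =>
    rw [pow_zero]
    exact Nat.card_pos
  | succ n ih =>
    have h0 := ih (fun j hj => h1 j (by omega)) (fun i hi j hj => h2 i (by omega) j (by omega))
      (fun i hi j hj => h3 i (by omega) j (by omega)) (fun i hi => h4 i (by omega))
    refine card_step (elab_Pt h1 h2) (Pt_mono (Nat.le_succ n)) (mem_Pt (Nat.lt_succ_self n)) ?_ h0
    intro h5
    refine h4 n (Nat.lt_succ_self n) ?_
    have h6 : Pt t n ≤ centralizer {y n} := by
      unfold Pt
      rw [closure_le]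
      rintro _ ⟨j, hj, rfl⟩
      rw [SetLike.mem_coe, mem_centralizer_singleton_iff]
      exact h3 n (by omega) j (by omega) (by omega)
    exact mem_centralizer_singleton_iff.1 (h6 h5)

end elab'

section gam

variable {G : Type*} [Group G] [Finite G] {p : ℕ} [hp : Fact p.Prime]

omit [Finite G] hp in
/-- the index of `F` in `⟨F, t⟩` -/
theorem relIndex_dvd {P F : Subgroup G} (hP : IsElementaryAbelian p P) {t : G} (ht : t ∈ P) (hF : F ≤ P)
    (h : P ≤ F ⊔ zpowers t) : F.relIndex P ∣ p := by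
  have hcomm : IsMulCommutative ↥P := hP.1
  have hn : (F.subgroupOf P).Normal := ⟨fun a ha g => by
    have : g * a * g⁻¹ = a := by
      rw [hcomm.1.1 g a]; group
    rwa [this]⟩
  have h1 : (F.subgroupOf P).index = (F.subgroupOf P).relIndex (zpowers (⟨t, ht⟩ : ↥P)) := by
    rw [← relIndex_sup_right, ← relIndex_top_right]
    congr 1
    rw [eq_comm, eq_top_iff]
    intro x _
    have h2 : F ⊔ zpowers t ≤ ((zpowers (⟨t, ht⟩ : ↥P)) ⊔ F.subgroupOf P).map P.subtype := by
      rw [Subgroup.map_sup]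
      refine sup_le ?_ ?_
      · refine le_trans ?_ le_sup_right
        intro y hy
        exact ⟨⟨y, hF hy⟩, hy, rfl⟩
      · refine le_trans ?_ le_sup_left
        rw [zpowers_le]
        exact ⟨⟨t, ht⟩, mem_zpowers _, rfl⟩
    obtain ⟨y, hy, hyx⟩ := h2 (h x.2)
    have : y = x := Subtype.ext hyx
    rwa [← this]
  rw [relIndex, h1]
  refine ((F.subgroupOf P).subgroupOf (zpowers (⟨t, ht⟩ : ↥P))).index_dvd_card.trans ?_
  rw [Nat.card_zpowers]
  exact orderOf_dvd_of_pow_eq_one (Subtype.ext (hP.2 t ht))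

omit [Finite G] hp in
theorem conj_inj (hZ : center G = ⊥) : Function.Injective (MulAut.conj : G →* MulAut G) := by
  rw [injective_iff_map_eq_one]
  intro g hg
  have : g ∈ center G := by
    rw [mem_center_iff]
    intro h
    have h1 : (MulAut.conj g) h = h := by rw [hg]; rfl
    rw [MulAut.conj_apply] at h1
    calc h * g = (g * h * g⁻¹) * g := by rw [h1]
      _ = g * h := by group
  rw [hZ] at this
  exact mem_bot.1 this

omit [Finite G] hp in
theorem elab_map {X : Type*} [Group X] {P : Subgroup G} (hP : IsElementaryAbelian p P) (f : G →* X) :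
    IsElementaryAbelian p (P.map f) := by
  refine ⟨⟨⟨?_⟩⟩, ?_⟩
  · rintro ⟨_, a, ha, rfl⟩ ⟨_, b, hb, rfl⟩
    have := congrArg (fun z : ↥P => (z : G)) (hP.1.1.1 ⟨a, ha⟩ ⟨b, hb⟩)
    refine Subtype.ext ?_
    show f a * f b = f b * f a
    rw [← map_mul, ← map_mul]
    exact congrArg f this
  · rintro _ ⟨a, ha, rfl⟩
    rw [← map_pow, hP.2 a ha, map_one]

/-- `y` commutes with `F`, `P = ⟨F, t⟩`: `y ∈ Γ(P)` -/
theorem mem_Gam (hZ : center G = ⊥) {P F : Subgroup G} (hP : IsElementaryAbelian p P) (hc : p ≤ Nat.card P) {t : G}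
    (ht : t ∈ P) (hF : F ≤ P) (h : P ≤ F ⊔ zpowers t) {y : G} (hy : F ≤ centralizer {y}) :
    y ∈ Gam p (P.map (MulAut.conj : G →* MulAut G)) := by
  have hi := conj_inj hZ
  have hfix : y ∈ CF (F.map (MulAut.conj : G →* MulAut G)) := by
    rintro _ ⟨f, hf, rfl⟩
    rw [MulAut.conj_apply, mul_inv_eq_iff_eq_mul]
    exact mem_centralizer_singleton_iff.1 (hy hf)
  have hr : (F.map (MulAut.conj : G →* MulAut G)).relIndex (P.map (MulAut.conj : G →* MulAut G)) = F.relIndex P :=
    relIndex_map_map_of_injective _ _ hi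
  rcases (Nat.dvd_prime hp.out).1 (relIndex_dvd hP ht hF h) with h1 | h1
  · have h2 : P ≤ F := relIndex_eq_one.1 h1
    refine CF_le_Gam_of_card (elab_map hP _) ?_ (CF_anti (map_mono h2) hfix)
    rwa [Nat.card_congr (P.equivMapOfInjective _ hi).toEquiv.symm]
  · exact CF_le_Gam' (map_mono hF) (hr.trans h1) hfix

/-- the form with a set `F0` of generators of `F` -/
theorem mem_Gam_of_set (hZ : center G = ⊥) {t : ℕ → G} {n : ℕ} (hP : IsElementaryAbelian p (Pt t n))
    (hc : p ≤ Nat.card (Pt t n)) {a : G} (ha : a ∈ Pt t n) {F0 : Set G} (hF : ∀ f ∈ F0, f ∈ Pt t n)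
    (h : ∀ j < n, t j ∈ closure F0 ⊔ zpowers a) {y : G} (hy : ∀ f ∈ F0, Commute f y) :
    y ∈ Gam p ((Pt t n).map (MulAut.conj : G →* MulAut G)) := by
  refine mem_Gam hZ hP hc ha (F := closure F0) ((closure_le _).2 hF) ?_ ?_
  · unfold Pt
    rw [closure_le]
    rintro _ ⟨j, hj, rfl⟩
    exact h j hj
  · rw [closure_le]
    intro f hf
    exact mem_centralizer_singleton_iff.2 (hy f hf)

/-- `y` commutes with the `t j`, `j ≠ i` -/
theorem mem_Gam_of_ne (hZ : center G = ⊥) {t : ℕ → G} {n : ℕ} (hP : IsElementaryAbelian p (Pt t n))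
    (hc : p ≤ Nat.card (Pt t n)) {i : ℕ} (hi : i < n) {y : G} (hy : ∀ j < n, j ≠ i → Commute (t j) y) :
    y ∈ Gam p ((Pt t n).map (MulAut.conj : G →* MulAut G)) := by
  refine mem_Gam_of_set hZ hP hc (mem_Pt hi) (F0 := {g | ∃ j < n, j ≠ i ∧ g = t j}) ?_ ?_ ?_
  · rintro _ ⟨j, hj, -, rfl⟩
    exact mem_Pt hj
  · intro j hj
    by_cases hji : j = i
    · subst hji
      exact mem_sup_right (mem_zpowers _)
    · exact mem_sup_left (subset_closure ⟨j, hj, hji, rfl⟩)
  · rintro _ ⟨j, hj, hji, rfl⟩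
    exact hy j hj hji

/-- **the inner Sylow case** -/
theorem gen_of_sylow (hZ : center G = ⊥) (hinn : ∀ φ : MulAut G, φ ^ p = 1 → φ ∈ (MulAut.conj : G →* MulAut G).range)
    {P : Subgroup G} (hP : IsElementaryAbelian p P) {k : ℕ} (hk : p ^ k ≤ Nat.card P) (hk' : ¬ p ^ (k + 1) ∣ Nat.card G)
    (hG : Gam p (P.map (MulAut.conj : G →* MulAut G)) = ⊤) : Gen p G := by
  intro E hE hc
  have hi := conj_inj hZ
  -- `P` is a Sylow group
  obtain ⟨n, hn⟩ := (elab_isPGroup hP).exists_card_eq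
  have hn1 : k ≤ n := by
    rw [hn] at hk
    exact (Nat.pow_le_pow_iff_right hp.out.one_lt).1 hk
  have hn2 : n ≤ k := by
    by_contra hcon
    push Not at hcon
    refine hk' ((pow_dvd_pow p hcon).trans ?_)
    rw [← hn]
    exact P.card_subgroup_dvd_card
  have hnk : n = k := le_antisymm hn2 hn1
  subst hnk
  -- the Sylow group containing `P`
  obtain ⟨Q, hQ⟩ := (elab_isPGroup hP).exists_le_sylow
  have hQP : (Q : Subgroup G) = P := by
    refine (eq_of_le_of_card_ge hQ ?_).symm
    obtain ⟨m, hm⟩ := Q.2.exists_card_eq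
    rw [hn, hm]
    refine Nat.pow_le_pow_right hp.out.pos ?_
    by_contra hcon
    push Not at hcon
    refine hk' ((pow_dvd_pow p hcon).trans ?_)
    rw [← hm]
    exact (Q : Subgroup G).card_subgroup_dvd_card
  -- `E` is inner
  have hEr : E ≤ (MulAut.conj : G →* MulAut G).range := fun φ hφ => hinn φ (hE.2 φ hφ)
  have hE0 : (E.comap (MulAut.conj : G →* MulAut G)).map MulAut.conj = E := map_comap_eq_self hEr
  have hE0p : IsPGroup p ↥(E.comap (MulAut.conj : G →* MulAut G)) :=
    (elab_isPGroup hE).comap_of_injective _ hi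
  obtain ⟨R, hR⟩ := hE0p.exists_le_sylow
  obtain ⟨g, hg⟩ := MulAction.exists_smul_eq G Q R
  have hRQ : (R : Subgroup G) = P.map (MulAut.conj g).toMonoidHom := by
    rw [← hg, Sylow.coe_subgroup_smul, hQP]
    rfl
  -- the conjugate of `P`
  have h1 : (P.map (MulAut.conj g).toMonoidHom).map (MulAut.conj : G →* MulAut G) =
      (P.map (MulAut.conj : G →* MulAut G)).map (MulAut.congr (MulAut.conj g)).toMonoidHom := by
    rw [Subgroup.map_map, Subgroup.map_map]
    congr 1
    ext x y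
    show g * x * g⁻¹ * y * (g * x * g⁻¹)⁻¹ = g * (x * (g⁻¹ * y * g) * x⁻¹) * g⁻¹
    group
  have h2 : Gam p ((P.map (MulAut.conj g).toMonoidHom).map (MulAut.conj : G →* MulAut G)) = ⊤ := by
    rw [h1, ← map_Gam, hG]
    exact map_top_of_surjective _ (MulAut.conj g).surjective
  have h3 : E ≤ (P.map (MulAut.conj g).toMonoidHom).map (MulAut.conj : G →* MulAut G) := by
    rw [← hE0]
    refine map_mono ?_
    rw [← hRQ]
    exact hR
  rw [eq_top_iff, ← h2]
  exact Gam_mono h3 (elab_map (elab_map hP _) _) (le_trans (by nlinarith [hp.out.pos, hp.out.one_lt]) hc)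

end gam

end Cfsg.Agent.H751.Two.Seven
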