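import Cfsg.Agent.H751.Two.Code
import Cfsg.Agent.H751.Two.Seven
import Cfsg.Agent.H810.StrP.F4Eng
import Cfsg.Agent.S1025

/-!
# Certificates with the commutator formula over the field with two elements (helper751)

* `okC D r s`    : `x_r(1)`, `x_s(1)` commute;
* `okT3 D e`     : `x_k(1)` is a product of `x_r(1)`, `x_s(1)` and inverses (`e = (r, s, k)`);
* `run D K st`   : all roots are obtained from the set `K` (a bit mask) by the steps `st`;
* `eq_top_of_run`: a subgroup containing the `x_r(1)`, `r ∈ K`, is the whole group.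
-/

set_option autoImplicit false

namespace Cfsg.Agent.H751.Two.Cert

open Cfsg Subgroup Cfsg.Lie Cfsg.Agent.H751.Two.Code Cfsg.Agent.ChevalleyStructure.Elts

universe u

/-- `x_r`, `x_s` commute -/
def okC (D : ChevalleyDatum) (r s : ℕ) : Bool :=
  Nat.blt r D.nroots && Nat.blt s D.nroots && !(Nat.beq s r) && !(Nat.beq s (D.neg r)) &&
    match D.commTerms r s with
    | [] => true
    | _ => false

/-- `[x_r, x_s] = x_k` -/
def okT3 (D : ChevalleyDatum) (e : ℕ × ℕ × ℕ) : Bool :=
  Nat.blt e.1 D.nroots && Nat.blt e.2.1 D.nroots && !(Nat.beq e.2.1 e.1) && !(Nat.beq e.2.1 (D.neg e.1)) &&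
    match D.commTerms e.1 e.2.1 with
    | [(k, c, i, j)] => Nat.beq k e.2.2 && (c.natAbs % 2 == 1) && Nat.beq i 1 && Nat.beq j 1
    | _ => false

theorem ne_of_bnot {a b : ℕ} (h : (!(Nat.beq a b)) = true) : a ≠ b := by
  rintro rfl
  rw [Nat.beq_refl] at h
  exact absurd h (by decide)

variable {D : ChevalleyDatum} (hD : InList D) (K : Type u) [Field K]

theorem commute_xG {r s : ℕ} (h : okC D r s = true) (t u : K) : Commute (xG hD r t) (xG hD s u) := by
  unfold okC at h
  simp only [Bool.and_eq_true] at h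
  obtain ⟨⟨⟨⟨h1, h2⟩, h3⟩, h4⟩, h5⟩ := h
  have h6 : D.commTerms r s = [] := by
    revert h5
    cases D.commTerms r s with
    | nil => intro _; rfl
    | cons a l => intro h; exact absurd h (by simp)
  apply Units.ext
  have h := Cfsg.Agent.S1025.result (F := K) D hD r s (by simpa [Nat.blt_eq] using h1) (by simpa [Nat.blt_eq] using h2)
    (ne_of_bnot h3) (ne_of_bnot h4) t u
  have h2 : D.commWord K r s t u = [] := by
    unfold ChevalleyDatum.commWord
    rw [h6]
    rfl
  rw [h2, wordMat_nil, mul_one] at h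
  exact h.symm

/-- all letters of the words commute -/
def okCW (D : ChevalleyDatum) (v w : List ℕ) : Bool := v.all fun r => w.all fun s => okC D r s

theorem commute_wG {v w : List ℕ} (h : okCW D v w = true) : Commute (wG hD K v) (wG hD K w) := by
  unfold wG
  refine Commute.list_prod_left _ _ ?_
  intro x hx
  obtain ⟨r, hr, rfl⟩ := List.mem_map.1 hx
  refine Commute.list_prod_right _ _ ?_
  intro y hy
  obtain ⟨s, hs, rfl⟩ := List.mem_map.1 hy
  unfold okCW at h
  exact commute_xG hD K (List.all_eq_true.1 (List.all_eq_true.1 h r hr) s hs) 1 1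

theorem commute_wg {v w : List ℕ} (h : okCW D v w = true) : Commute (wg hD K v) (wg hD K w) :=
  Subtype.ext (commute_wG hD K h)

variable {K} [CharP K 2]

theorem mem_of_okT3 {M : Subgroup ↥(D.group K)} {r s k : ℕ} (h : okT3 D (r, s, k) = true)
    (hr : wg hD K [r] ∈ M) (hs : wg hD K [s] ∈ M) : wg hD K [k] ∈ M := by
  unfold okT3 at h
  simp only [Bool.and_eq_true] at h
  obtain ⟨⟨⟨⟨h1, h2⟩, h3⟩, h4⟩, h5⟩ := h
  obtain ⟨c, h6, hc⟩ : ∃ c : ℤ, D.commTerms r s = [(k, c, 1, 1)] ∧ c.natAbs % 2 = 1 := by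
    revert h5
    rcases D.commTerms r s with _ | ⟨⟨k', c, i, j⟩, _ | ⟨b, l⟩⟩
    · intro h; exact absurd h (by simp)
    · intro h
      simp only [Bool.and_eq_true, beq_iff_eq] at h
      obtain ⟨⟨⟨a1, a2⟩, a3⟩, a4⟩ := h
      have a1' := Nat.eq_of_beq_eq_true a1
      have a3' := Nat.eq_of_beq_eq_true a3
      have a4' := Nat.eq_of_beq_eq_true a4
      subst a1' a3' a4'
      exact ⟨c, rfl, a2⟩
    · intro h; exact absurd h (by simp)
  have hc1 : (c : K) = 1 := by
    have e1 : (2 : ℤ) ∣ c - 1 := by omega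
    obtain ⟨d, hd⟩ := e1
    have e2 : c = 2 * d + 1 := by omega
    rw [e2]
    push_cast
    rw [CharTwo.two_eq_zero, zero_mul, zero_add]
  have h := Cfsg.Agent.S1025.result (F := K) D hD r s (by simpa [Nat.blt_eq] using h1) (by simpa [Nat.blt_eq] using h2)
    (ne_of_bnot h3) (ne_of_bnot h4) 1 1
  have h7 : D.wordMat K (D.commWord K r s 1 1) = (xG hD k (1 : K) : Matrix D.Idx D.Idx K) := by
    unfold ChevalleyDatum.commWord
    rw [h6]
    simp only [List.map_cons, List.map_nil, pow_one, one_pow, mul_one, hc1, one_mul]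
    rw [wordMat_cons, wordMat_nil, mul_one, coe_xG, CharTwo.neg_eq]
  rw [h7] at h
  have h8 : wg hD K [s] * wg hD K [r] = wg hD K [r] * wg hD K [s] * wg hD K [k] := by
    apply Subtype.ext
    apply Units.ext
    show ((wG hD K [s] * wG hD K [r] : GL D.Idx K) : Matrix D.Idx D.Idx K) =
      ((wG hD K [r] * wG hD K [s] * wG hD K [k] : GL D.Idx K) : Matrix D.Idx D.Idx K)
    simp only [wG_cons, wG_nil, mul_one, Units.val_mul]
    simpa only [coe_xG] using h
  have h9 : wg hD K [k] = (wg hD K [r] * wg hD K [s])⁻¹ * (wg hD K [s] * wg hD K [r]) := by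
    rw [h8]; group
  rw [h9]
  exact M.mul_mem (M.inv_mem (M.mul_mem hr hs)) (M.mul_mem hs hr)

omit [CharP K 2] in
theorem wg_mem {M : Subgroup ↥(D.group K)} {w : List ℕ} (h : ∀ r ∈ w, wg hD K [r] ∈ M) : wg hD K w ∈ M := by
  induction w with
  | nil => exact one_mem M
  | cons r w ih =>
    have h1 : wg hD K (r :: w) = wg hD K [r] * wg hD K w := wg_append hD K [r] w
    rw [h1]
    exact M.mul_mem (h r List.mem_cons_self) (ih fun s hs => h s (List.mem_cons_of_mem _ hs))

/-- all roots are obtained from the bit mask `m` by the steps -/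
def run (D : ChevalleyDatum) (m : ℕ) (st : List (ℕ × ℕ × ℕ)) : Bool :=
  match st with
  | [] => (List.range D.nroots).all fun r => m.testBit r
  | e :: st => m.testBit e.1 && m.testBit e.2.1 && okT3 D e && run D (m ||| 2 ^ e.2.2) st

theorem eq_top_of_run (hK : Nat.card K = 2) {M : Subgroup ↥(D.group K)} :
    ∀ (st : List (ℕ × ℕ × ℕ)) (m : ℕ), run D m st = true → (∀ r, m.testBit r = true → wg hD K [r] ∈ M) → M = ⊤
  | [], m, h, hm => by
    unfold run at h
    refine Cfsg.Agent.H810.StrP.eq_top_of_roots hD hK M fun r hr => ?_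
    have h1 := hm r (List.all_eq_true.1 h r (List.mem_range.2 hr))
    have h2 : wg hD K [r] = ⟨xG hD r (1 : K), xG_mem_group hD r 1⟩ := by
      apply Subtype.ext
      show wG hD K [r] = _
      rw [wG_cons, wG_nil, mul_one]
    rwa [h2] at h1
  | (r, s, k) :: st, m, h, hm => by
    unfold run at h
    simp only [Bool.and_eq_true] at h
    obtain ⟨⟨⟨h1, h2⟩, h3⟩, h4⟩ := h
    refine eq_top_of_run hK st _ h4 fun a ha => ?_
    rw [Nat.testBit_or, Bool.or_eq_true] at ha
    rcases ha with ha | ha
    · exact hm a ha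
    · rw [Nat.testBit_two_pow] at ha
      have hak : k = a := by simpa using ha
      rw [← hak]
      exact mem_of_okT3 hD h3 (hm r h1) (hm s h2)

/-- the bit mask of a list of roots -/
def msk (l : List ℕ) : ℕ := l.foldr (fun r m => m ||| 2 ^ r) 0

theorem mem_of_msk {l : List ℕ} {r : ℕ} (h : (msk l).testBit r = true) : r ∈ l := by
  induction l with
  | nil => exact absurd h (by simp [msk])
  | cons s l ih =>
    have h1 : msk (s :: l) = msk l ||| 2 ^ s := rfl
    rw [h1, Nat.testBit_or, Bool.or_eq_true] at h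
    rcases h with h | h
    · exact List.mem_cons_of_mem _ (ih h)
    · rw [Nat.testBit_two_pow] at h
      have : s = r := by simpa using h
      rw [this]
      exact List.mem_cons_self

end Cfsg.Agent.H751.Two.Cert
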