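import Cfsg.Agent.H751.Two.Frame
import Cfsg.Agent.H751.Two.DataE6
import Cfsg.Agent.S2123
import Cfsg.Agent.S1063

/-!
# `E₆(2)`, `p = 7` (helper751, S2187)
-/

set_option autoImplicit false
set_option linter.dupNamespace false

namespace Cfsg.Agent.H751.Two.E6

open Cfsg Subgroup Cfsg.Lie Cfsg.Agent.H751.Two.Code Cfsg.Agent.H751.Two.Cert Cfsg.Agent.H751.Two.Frame
  Cfsg.Agent.H751.Two.Bits Cfsg.Agent.H751.Two.Word Cfsg.Agent.ChevalleyStructure.Elts Cfsg.Agent.H818.Gen

universe u

theorem hD : InList chevE6 := by simp [InList]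

/-- the words of order 7 -/
def T (i : ℕ) : List ℕ := DataE6.tw.getD i []
/-- the roots of the factors -/
def KR (i : ℕ) : List ℕ := DataE6.kr.getD i []
/-- a root of the factor -/
def y (i : ℕ) : ℕ := (KR i).getD 0 0
/-- positions at which `T i`, `y i` do not commute -/
def ps (i : ℕ) : ℕ × ℕ := [(0, 0), (4, 3), (0, 3)].getD i (0, 0)

theorem okX : okT chevE6 DataE6.X = true := by decide +kernel

/-- equality of two words, by their codes -/
def eqW (a b : List ℕ) : Bool :=
  okW DataE6.X a && okW DataE6.X b &&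
    Nat.beq (wc (sz chevE6) DataE6.X a (idN (sz chevE6))) (wc (sz chevE6) DataE6.X b (idN (sz chevE6)))

/-- the codes of two words differ at a position -/
def neW (a b : List ℕ) (i j : ℕ) : Bool :=
  okW DataE6.X a && okW DataE6.X b && Nat.blt i (sz chevE6) && Nat.blt j (sz chevE6) &&
    ((wc (sz chevE6) DataE6.X a (idN (sz chevE6))).testBit (sz chevE6 * i + j) !=
      (wc (sz chevE6) DataE6.X b (idN (sz chevE6))).testBit (sz chevE6 * i + j))

section

variable {F : Type u} [Field F] [CharP F 2]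

theorem eq_of_eqW {a b : List ℕ} (h : eqW a b = true) : wG hD F a = wG hD F b := by
  unfold eqW at h
  simp only [Bool.and_eq_true] at h
  exact eq_of_code hD okX h.1.1 h.1.2 h.2

theorem ne_of_neW {a b : List ℕ} {i j : ℕ} (h : neW a b i j = true) : wG hD F a ≠ wG hD F b := by
  unfold neW at h
  simp only [Bool.and_eq_true] at h
  obtain ⟨⟨⟨⟨h1, h2⟩, h3⟩, h4⟩, h5⟩ := h
  exact ne_of_code hD okX h1 h2 (by simpa [Nat.blt_eq] using h3) (by simpa [Nat.blt_eq] using h4)
    (by simpa only [bne_iff_ne, ne_eq] using h5)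

end

theorem c_tt : ∀ i < 3, ∀ j < 3, i ≠ j → okCW chevE6 (T i) (T j) = true := by decide +kernel
theorem c_tk : ∀ i < 3, ∀ j < 3, i ≠ j → okCW chevE6 (T i) (KR j) = true := by decide +kernel
theorem c_pw : ∀ i < 3, eqW (rep 7 (T i)) [] = true := by decide +kernel
theorem c_mem : ∀ i < 3, y i ∈ KR i := by decide +kernel
theorem c_ne : ∀ i < 3, neW (T i ++ [y i]) ([y i] ++ T i) (ps i).1 (ps i).2 = true := by decide +kernel

theorem fr (F : Type u) [Field F] [CharP F 2] : Fr hD F 7 3 T KR y where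
  tt := c_tt
  tk := c_tk
  pw i hi := eq_of_eqW (c_pw i hi)
  mem := c_mem
  ne i hi := ne_of_neW (c_ne i hi)

/-- the further element -/
def x : List ℕ := DataE6.xw.getD 0 []
def f1 : List ℕ := T 1 ++ (T 2).reverse
def f2 : List ℕ := T 0 ++ T 2

theorem c_x1 : eqW (f1 ++ x) (x ++ f1) = true := by decide +kernel
theorem c_x2 : eqW (f2 ++ x) (x ++ f2) = true := by decide +kernel

/-- the letters of the relation -/
def uu : List ℕ := x ++ ([15, 0] ++ (x ++ ([0, 15] ++ x)))

theorem c_rel : eqW ([29] ++ (uu ++ ([29] ++ uu))) [2] = true := by decide +kernel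

theorem c_run : run chevE6 (msk (2 :: (KR 0 ++ (KR 1 ++ KR 2)))) DataE6.st = true := by decide +kernel

section

variable {F : Type u} [Field F] [Finite F]

theorem x_mem [CharP F 2] : wg hD F x ∈ GamP 7 hD F T 3 := by
  have : Fact (Nat.Prime 7) := ⟨by norm_num⟩
  have h0 : el hD F T 0 ∈ Seven.Pt (el hD F T) 3 := Seven.mem_Pt (by norm_num)
  have h1 : el hD F T 1 ∈ Seven.Pt (el hD F T) 3 := Seven.mem_Pt (by norm_num)
  have h2 : el hD F T 2 ∈ Seven.Pt (el hD F T) 3 := Seven.mem_Pt (by norm_num)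
  have e1 : wg hD F f1 = el hD F T 1 * (el hD F T 2)⁻¹ := by
    show wg hD F (T 1 ++ (T 2).reverse) = wg hD F (T 1) * (wg hD F (T 2))⁻¹
    rw [wg_append, wg_inv]
  have e2 : wg hD F f2 = el hD F T 0 * el hD F T 2 := wg_append hD F _ _
  refine (fr F).word_mem (a := 2) (by norm_num) (F0 := {wg hD F f1, wg hD F f2}) ?_ ?_ ?_
  · rintro f (rfl | rfl)
    · rw [e1]; exact mul_mem h1 (inv_mem h2)
    · rw [e2]; exact mul_mem h0 h2
  · have g1 : wg hD F f1 ∈ closure ({wg hD F f1, wg hD F f2} : Set ↥(chevE6.group F)) ⊔ zpowers (el hD F T 2) :=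
      mem_sup_left (subset_closure (Or.inl rfl))
    have g2 : wg hD F f2 ∈ closure ({wg hD F f1, wg hD F f2} : Set ↥(chevE6.group F)) ⊔ zpowers (el hD F T 2) :=
      mem_sup_left (subset_closure (Or.inr rfl))
    have g3 : el hD F T 2 ∈ closure ({wg hD F f1, wg hD F f2} : Set ↥(chevE6.group F)) ⊔ zpowers (el hD F T 2) :=
      mem_sup_right (mem_zpowers _)
    intro j hj
    have hj' : j = 0 ∨ j = 1 ∨ j = 2 := by omega
    rcases hj' with rfl | rfl | rfl
    · have q : el hD F T 0 = wg hD F f2 * (el hD F T 2)⁻¹ := by rw [e2, mul_inv_cancel_right]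
      rw [q]; exact mul_mem g2 (inv_mem g3)
    · have q : el hD F T 1 = wg hD F f1 * el hD F T 2 := by rw [e1, inv_mul_cancel_right]
      rw [q]; exact mul_mem g1 g3
    · exact g3
  · rintro f (rfl | rfl)
    · exact commute_of_eq hD F (eq_of_eqW c_x1)
    · exact commute_of_eq hD F (eq_of_eqW c_x2)

theorem root_mem [CharP F 2] {i r : ℕ} (hi : i < 3) (hr : r ∈ KR i) : wg hD F [r] ∈ GamP 7 hD F T 3 := by
  have : Fact (Nat.Prime 7) := ⟨by norm_num⟩
  exact (fr F).root_mem hi hr

theorem two_mem [CharP F 2] : wg hD F [2] ∈ GamP 7 hD F T 3 := by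
  have h29 : wg hD F [29] ∈ GamP 7 hD F T 3 := root_mem (i := 0) (by norm_num) (by decide)
  have h15 : wg hD F [15] ∈ GamP 7 hD F T 3 := root_mem (i := 0) (by norm_num) (by decide)
  have h0 : wg hD F [0] ∈ GamP 7 hD F T 3 := root_mem (i := 2) (by norm_num) (by decide)
  have ha : wg hD F [15, 0] ∈ GamP 7 hD F T 3 := by
    have : wg hD F [15, 0] = wg hD F [15] * wg hD F [0] := wg_append hD F [15] [0]
    rw [this]; exact mul_mem h15 h0
  have hb : wg hD F [0, 15] ∈ GamP 7 hD F T 3 := by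
    have : wg hD F [0, 15] = wg hD F [0] * wg hD F [15] := wg_append hD F [0] [15]
    rw [this]; exact mul_mem h0 h15
  have hx := x_mem (F := F)
  have hu : wg hD F uu ∈ GamP 7 hD F T 3 := by
    unfold uu
    rw [wg_append, wg_append, wg_append, wg_append]
    exact mul_mem hx (mul_mem ha (mul_mem hx (mul_mem hb hx)))
  have h : wg hD F [2] = wg hD F ([29] ++ (uu ++ ([29] ++ uu))) := Subtype.ext (eq_of_eqW c_rel).symm
  rw [h, wg_append, wg_append, wg_append]
  exact mul_mem h29 (mul_mem hu (mul_mem h29 hu))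

theorem gamP_eq_top [CharP F 2] (hF : Nat.card F = 2) : GamP 7 hD F T 3 = ⊤ := by
  refine eq_top_of_run hD hF _ _ c_run ?_
  intro r hr
  have h := mem_of_msk hr
  rcases List.mem_cons.1 h with rfl | h
  · exact two_mem
  rcases List.mem_append.1 h with h | h
  · exact root_mem (i := 0) (by norm_num) h
  rcases List.mem_append.1 h with h | h
  · exact root_mem (i := 1) (by norm_num) h
  · exact root_mem (i := 2) (by norm_num) h

end

/-- **`E₆(2)`, `p = 7`** -/
theorem gen_E6_two {F : Type u} [Field F] (hF : Nat.card F = 2) : Gen 7 ↥(chevE6.group F) := by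
  have : Finite F := Nat.finite_of_card_ne_zero (by rw [hF]; norm_num)
  have hft := Fintype.ofFinite F
  have : CharP F 2 := Cfsg.Agent.H810.StrP.charP_two hF
  have : Fact (Nat.Prime 2) := ⟨by norm_num⟩
  have : Fact (Nat.Prime 7) := ⟨by norm_num⟩
  have hF' : Fintype.card F = 2 := by rw [← Nat.card_eq_fintype_card, hF]
  have hout := Cfsg.Agent.S2123.result (F := F) 2 1 (by rw [hF', pow_one])
  have hcard := Cfsg.Agent.S1063.result (F := F) hF'
  refine (fr F).gen (m := 2 * Nat.gcd 3 (2 ^ 1 - 1) * 1) (by norm_num) hout ?_ (gamP_eq_top hF)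
  intro h
  have h1 : 7 ^ 4 ∣ Nat.gcd 3 (2 - 1) * Nat.card ↥(chevE6.group F) := dvd_mul_of_dvd_right h _
  rw [hcard] at h1
  revert h1
  norm_num

end Cfsg.Agent.H751.Two.E6
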