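import Cfsg.Agent.H751.Two.Rank
import Cfsg.Agent.H111.Fpf.SevenPar
import Cfsg.Agent.H810.StrP.F4Eng
import Cfsg.Agent.S1064
import Cfsg.Agent.S2124

/-!
# `E₇(2)`, `p = 7` (helper751, S2187): the parabolic subgroup of type `E₆` has index prime to 7
-/

set_option autoImplicit false
set_option maxRecDepth 100000

namespace Cfsg.Agent.H751.Two.E7

open Cfsg Subgroup Cfsg.Lie Cfsg.Agent.H818.Gen Cfsg.Agent.H751.Two.Rank Cfsg.Agent.H134.StrP
  Cfsg.Agent.ChevalleyStructure.CoxeterGeom Cfsg.Agent.H35.ExcIdx Cfsg.Agent.Nodes.StabComb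
  Cfsg.Agent.Nodes.LeviDec Cfsg.Agent.Nodes.BNOf Cfsg.Agent.ChevalleyStructure.CoxeterGeomTypes
  Cfsg.Agent.Nodes.RGDChev Cfsg.Agent.KFacts.RgdCharP
  Cfsg.Agent.H111.Fpf.SevenPar

/-- **`E₇(2)`, `p = 7`** -/
theorem gen_E7_two {F : Type} [Field F] (hF : Nat.card F = 2) : Gen 7 ↥(chevE7.group F) := by
  have : Finite F := Nat.finite_of_card_ne_zero (by rw [hF]; norm_num)
  have hft := Fintype.ofFinite F
  have : CharP F 2 := Cfsg.Agent.H810.StrP.charP_two hF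
  have : Fact (Nat.Prime 2) := ⟨Nat.prime_two⟩
  have : Fact (Nat.Prime 7) := ⟨by norm_num⟩
  have hF' : Fintype.card F = 2 := by rw [← Nat.card_eq_fintype_card, hF]
  have h := Ex2.E7 hF'
  have := h.simple
  have := finite_W h.ty CoxeterMatrix.E₇.toCoxeterSystem
  have hz := H240.GenTwF.center_bot h.nc
  have hout : Nat.card (Out ↥(chevE7.group F)) = 1 :=
    (Cfsg.Agent.S2124.result (F := F) 2 1 (by rw [hF', pow_one])).trans (by norm_num)
  have h1 := h.pcard_tab tabA_ok (J' := [0, 1, 2, 3, 4]) (by decide +kernel)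
    (h.pcard_tab tabB_ok (J' := [0, 1, 2, 3]) (by decide +kernel) (h.pcard_path path_a h.pcard_nil))
  have h2 := h.index_mul h1 (P := (2 ^ 2 - 1) * (2 ^ 6 - 1) * (2 ^ 8 - 1) * (2 ^ 10 - 1) * (2 ^ 12 - 1) * (2 ^ 14 - 1) *
    (2 ^ 18 - 1)) (by
      refine ⟨63, ?_⟩
      have h1 := Cfsg.Agent.S1064.result hF'
      norm_num at h1 ⊢
      exact h1) (by norm_num)
  have hidx : ¬ 7 ∣ (PJ CoxeterMatrix.E₇.toCoxeterSystem h.ty.isCartan (TT chevE7 F) (XX chevE7 7 F)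
      {j | j ∈ ([0, 1, 2, 3, 4, 5] : List (Fin 7))}).index := by
    rw [sum_a, sum_b, show ([0, 2, 3, 1] : List (Fin 7)).length = 4 from rfl, fa_four] at h2
    intro h3
    obtain ⟨c, hc⟩ := h3
    rw [hc] at h2
    norm_num at h2
    omega
  exact gen_of_index (r := 2) h.filt h.nonab (by decide) hz (by rw [hout]; decide)
    (isPGroup_VJ h.rgdK {j | j ∈ ([0, 1, 2, 3, 4, 5] : List (Fin 7))})
    (VJ_ne_bot h.rgdK ⟨6, by decide⟩) (PJ_le_normalizer_VJ h.rgdK _) hidx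

end Cfsg.Agent.H751.Two.E7
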