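import Cfsg.Agent.H751.Two.E8a

/-!
# `E₈(2)`, `p = 7`: the second element (helper751, S2187)
-/

set_option autoImplicit false
set_option linter.dupNamespace false

namespace Cfsg.Agent.H751.Two.E8

open Cfsg Subgroup Cfsg.Lie Cfsg.Agent.H751.Two.Code Cfsg.Agent.H751.Two.Cert Cfsg.Agent.H751.Two.Frame
  Cfsg.Agent.H751.Two.Bits Cfsg.Agent.H751.Two.Word Cfsg.Agent.ChevalleyStructure.Elts Cfsg.Agent.H818.Gen

universe u

/-- the second further element -/
def x2 : List ℕ := DataE8.xw.getD 1 []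
def k1 : List ℕ := T 2 ++ T 3
def k2 : List ℕ := T 0 ++ (T 3).reverse

theorem c_x2_0 : eqW (T 1 ++ x2) (x2 ++ T 1) = true := by decide +kernel
theorem c_x2_1 : eqW (k1 ++ x2) (x2 ++ k1) = true := by decide +kernel
theorem c_x2_2 : eqW (k2 ++ x2) (x2 ++ k2) = true := by decide +kernel

/-- the letters of the relation -/
def uu2 : List ℕ := x2 ++ ([1, 112] ++ (x2 ++ ([112, 1] ++ x2)))

theorem c_rel2 : eqW ([45] ++ (uu2 ++ ([45] ++ uu2))) [2] = true := by decide +kernel

variable {F : Type u} [Field F] [Finite F]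

theorem x2_mem [CharP F 2] : wg hD F x2 ∈ GamP 7 hD F T 4 := by
  have : Fact (Nat.Prime 7) := ⟨by norm_num⟩
  have h0 : el hD F T 0 ∈ Seven.Pt (el hD F T) 4 := el_mem (by norm_num)
  have h1 : el hD F T 1 ∈ Seven.Pt (el hD F T) 4 := el_mem (by norm_num)
  have h2 : el hD F T 2 ∈ Seven.Pt (el hD F T) 4 := el_mem (by norm_num)
  have h3 : el hD F T 3 ∈ Seven.Pt (el hD F T) 4 := el_mem (by norm_num)
  have e1 : wg hD F k2 = el hD F T 0 * (el hD F T 3)⁻¹ := by
    show wg hD F (T 0 ++ (T 3).reverse) = wg hD F (T 0) * (wg hD F (T 3))⁻¹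
    rw [wg_append, wg_inv]
  have e2 : wg hD F k1 = el hD F T 2 * el hD F T 3 := wg_append hD F _ _
  refine (fr F).word_mem (a := 3) (by norm_num) (F0 := {el hD F T 1, wg hD F k1, wg hD F k2}) ?_ ?_ ?_
  · rintro f (rfl | rfl | rfl)
    · exact h1
    · rw [e2]; exact mul_mem h2 h3
    · rw [e1]; exact mul_mem h0 (inv_mem h3)
  · have g0 : el hD F T 1 ∈ closure ({el hD F T 1, wg hD F k1, wg hD F k2} : Set ↥(chevE8.group F)) ⊔
        zpowers (el hD F T 3) := mem_sup_left (subset_closure (Or.inl rfl))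
    have g1 : wg hD F k1 ∈ closure ({el hD F T 1, wg hD F k1, wg hD F k2} : Set ↥(chevE8.group F)) ⊔
        zpowers (el hD F T 3) := mem_sup_left (subset_closure (Or.inr (Or.inl rfl)))
    have g2 : wg hD F k2 ∈ closure ({el hD F T 1, wg hD F k1, wg hD F k2} : Set ↥(chevE8.group F)) ⊔
        zpowers (el hD F T 3) := mem_sup_left (subset_closure (Or.inr (Or.inr rfl)))
    have g3 : el hD F T 3 ∈ closure ({el hD F T 1, wg hD F k1, wg hD F k2} : Set ↥(chevE8.group F)) ⊔
        zpowers (el hD F T 3) := mem_sup_right (mem_zpowers _)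
    intro j hj
    have hj' : j = 0 ∨ j = 1 ∨ j = 2 ∨ j = 3 := by omega
    rcases hj' with rfl | rfl | rfl | rfl
    · have q : el hD F T 0 = wg hD F k2 * el hD F T 3 := by rw [e1, inv_mul_cancel_right]
      rw [q]; exact mul_mem g2 g3
    · exact g0
    · have q : el hD F T 2 = wg hD F k1 * (el hD F T 3)⁻¹ := by rw [e2, mul_inv_cancel_right]
      rw [q]; exact mul_mem g1 (inv_mem g3)
    · exact g3
  · rintro f (rfl | rfl | rfl)
    · exact commute_of_eq hD F (eq_of_eqW c_x2_0)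
    · exact commute_of_eq hD F (eq_of_eqW c_x2_1)
    · exact commute_of_eq hD F (eq_of_eqW c_x2_2)

theorem two_mem [CharP F 2] : wg hD F [2] ∈ GamP 7 hD F T 4 := by
  have h45 : wg hD F [45] ∈ GamP 7 hD F T 4 := root_mem (i := 3) (by norm_num) (by decide)
  have h1 : wg hD F [1] ∈ GamP 7 hD F T 4 := root_mem (i := 0) (by norm_num) (by decide)
  have h112 : wg hD F [112] ∈ GamP 7 hD F T 4 := root_mem (i := 2) (by norm_num) (by decide)
  have ha : wg hD F [1, 112] ∈ GamP 7 hD F T 4 := by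
    have : wg hD F [1, 112] = wg hD F [1] * wg hD F [112] := wg_append hD F [1] [112]
    rw [this]; exact mul_mem h1 h112
  have hb : wg hD F [112, 1] ∈ GamP 7 hD F T 4 := by
    have : wg hD F [112, 1] = wg hD F [112] * wg hD F [1] := wg_append hD F [112] [1]
    rw [this]; exact mul_mem h112 h1
  have hx := x2_mem (F := F)
  have hu : wg hD F uu2 ∈ GamP 7 hD F T 4 := by
    unfold uu2
    rw [wg_append, wg_append, wg_append, wg_append]
    exact mul_mem hx (mul_mem ha (mul_mem hx (mul_mem hb hx)))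
  have h : wg hD F [2] = wg hD F ([45] ++ (uu2 ++ ([45] ++ uu2))) := Subtype.ext (eq_of_eqW c_rel2).symm
  rw [h, wg_append, wg_append, wg_append]
  exact mul_mem h45 (mul_mem hu (mul_mem h45 hu))

end Cfsg.Agent.H751.Two.E8
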