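import Cfsg.Agent.H751.Two.E8b
import Cfsg.Agent.H751.Two.E8c
import Cfsg.Agent.S2125
import Cfsg.Agent.S1065

/-!
# `E₈(2)`, `p = 7` (helper751, S2187)
-/

set_option autoImplicit false
set_option linter.dupNamespace false

namespace Cfsg.Agent.H751.Two.E8

open Cfsg Subgroup Cfsg.Lie Cfsg.Agent.H751.Two.Code Cfsg.Agent.H751.Two.Cert Cfsg.Agent.H751.Two.Frame
  Cfsg.Agent.H751.Two.Bits Cfsg.Agent.H751.Two.Word Cfsg.Agent.ChevalleyStructure.Elts Cfsg.Agent.H818.Gen

universe u

theorem c_run : run chevE8 (msk (2 :: 51 :: (KR 0 ++ (KR 1 ++ (KR 2 ++ KR 3))))) DataE8.st = true := by decide +kernel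

theorem gamP_eq_top {F : Type u} [Field F] [Finite F] [CharP F 2] (hF : Nat.card F = 2) : GamP 7 hD F T 4 = ⊤ := by
  refine eq_top_of_run hD hF _ _ c_run ?_
  intro r hr
  have h := mem_of_msk hr
  rcases List.mem_cons.1 h with rfl | h
  · exact two_mem
  rcases List.mem_cons.1 h with rfl | h
  · exact fiftyone_mem
  rcases List.mem_append.1 h with h | h
  · exact root_mem (i := 0) (by norm_num) h
  rcases List.mem_append.1 h with h | h
  · exact root_mem (i := 1) (by norm_num) h
  rcases List.mem_append.1 h with h | h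
  · exact root_mem (i := 2) (by norm_num) h
  · exact root_mem (i := 3) (by norm_num) h

/-- **`E₈(2)`, `p = 7`** -/
theorem gen_E8_two {F : Type u} [Field F] (hF : Nat.card F = 2) : Gen 7 ↥(chevE8.group F) := by
  have : Finite F := Nat.finite_of_card_ne_zero (by rw [hF]; norm_num)
  have hft := Fintype.ofFinite F
  have : CharP F 2 := Cfsg.Agent.H810.StrP.charP_two hF
  have : Fact (Nat.Prime 2) := ⟨by norm_num⟩
  have : Fact (Nat.Prime 7) := ⟨by norm_num⟩
  have hF' : Fintype.card F = 2 := by rw [← Nat.card_eq_fintype_card, hF]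
  have hout := Cfsg.Agent.S2125.result (F := F) 2 1 (by rw [hF', pow_one])
  have hcard := Cfsg.Agent.S1065.result (F := F) hF'
  refine (fr F).gen (m := 1) (by norm_num) hout ?_ (gamP_eq_top hF)
  intro h
  rw [hcard] at h
  revert h
  norm_num

end Cfsg.Agent.H751.Two.E8
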