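import Cfsg.Agent.H751.Two.Frame
import Cfsg.Agent.H751.Two.DataE8

/-!
# `E₈(2)`, `p = 7`: the Sylow group (helper751, S2187)
-/

set_option autoImplicit false
set_option linter.dupNamespace false

namespace Cfsg.Agent.H751.Two.E8

open Cfsg Subgroup Cfsg.Lie Cfsg.Agent.H751.Two.Code Cfsg.Agent.H751.Two.Cert Cfsg.Agent.H751.Two.Frame
  Cfsg.Agent.H751.Two.Bits Cfsg.Agent.H751.Two.Word Cfsg.Agent.ChevalleyStructure.Elts Cfsg.Agent.H818.Gen

universe u

theorem hD : InList chevE8 := by simp [InList]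

/-- the words of order 7 -/
def T (i : ℕ) : List ℕ := DataE8.tw.getD i []
/-- the roots of the factors -/
def KR (i : ℕ) : List ℕ := DataE8.kr.getD i []
/-- a root of the factor -/
def y (i : ℕ) : ℕ := (KR i).getD 0 0
/-- positions at which `T i`, `y i` do not commute -/
def ps (i : ℕ) : ℕ × ℕ := [(1, 6), (0, 0), (4, 3), (0, 3)].getD i (0, 0)

theorem okX : okT chevE8 DataE8.X = true := by decide +kernel

/-- equality of two words, by their codes -/
def eqW (a b : List ℕ) : Bool :=
  okW DataE8.X a && okW DataE8.X b &&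
    Nat.beq (wc (sz chevE8) DataE8.X a (idN (sz chevE8))) (wc (sz chevE8) DataE8.X b (idN (sz chevE8)))

/-- the codes of two words differ at a position -/
def neW (a b : List ℕ) (i j : ℕ) : Bool :=
  okW DataE8.X a && okW DataE8.X b && Nat.blt i (sz chevE8) && Nat.blt j (sz chevE8) &&
    ((wc (sz chevE8) DataE8.X a (idN (sz chevE8))).testBit (sz chevE8 * i + j) !=
      (wc (sz chevE8) DataE8.X b (idN (sz chevE8))).testBit (sz chevE8 * i + j))

section

variable {F : Type u} [Field F] [CharP F 2]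

theorem eq_of_eqW {a b : List ℕ} (h : eqW a b = true) : wG hD F a = wG hD F b := by
  unfold eqW at h
  simp only [Bool.and_eq_true] at h
  exact eq_of_code hD okX h.1.1 h.1.2 h.2

theorem ne_of_neW {a b : List ℕ} {i j : ℕ} (h : neW a b i j = true) : wG hD F a ≠ wG hD F b := by
  unfold neW at h
  simp only [Bool.and_eq_true] at h
  obtain ⟨⟨⟨⟨h1, h2⟩, h3⟩, h4⟩, h5⟩ := h
  exact ne_of_code hD okX h1 h2 (by simpa [Nat.blt_eq] using h3) (by simpa [Nat.blt_eq] using h4)
    (by simpa only [bne_iff_ne, ne_eq] using h5)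

end

theorem c_tt : ∀ i < 4, ∀ j < 4, i ≠ j → okCW chevE8 (T i) (T j) = true := by decide +kernel
theorem c_tk : ∀ i < 4, ∀ j < 4, i ≠ j → okCW chevE8 (T i) (KR j) = true := by decide +kernel
theorem c_pw : ∀ i < 4, eqW (rep 7 (T i)) [] = true := by decide +kernel
theorem c_mem : ∀ i < 4, y i ∈ KR i := by decide +kernel
theorem c_ne : ∀ i < 4, neW (T i ++ [y i]) ([y i] ++ T i) (ps i).1 (ps i).2 = true := by decide +kernel

theorem fr (F : Type u) [Field F] [CharP F 2] : Fr hD F 7 4 T KR y where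
  tt := c_tt
  tk := c_tk
  pw i hi := eq_of_eqW (c_pw i hi)
  mem := c_mem
  ne i hi := ne_of_neW (c_ne i hi)

theorem root_mem {F : Type u} [Field F] [Finite F] [CharP F 2] {i r : ℕ} (hi : i < 4) (hr : r ∈ KR i) :
    wg hD F [r] ∈ GamP 7 hD F T 4 := by
  have : Fact (Nat.Prime 7) := ⟨by norm_num⟩
  exact (fr F).root_mem hi hr

theorem el_mem {F : Type u} [Field F] {i : ℕ} (hi : i < 4) : el hD F T i ∈ Seven.Pt (el hD F T) 4 := Seven.mem_Pt hi

end Cfsg.Agent.H751.Two.E8
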