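import Cfsg.Agent.H751.Two.E8a

/-!
# `E₈(2)`, `p = 7`: the first element (helper751, S2187)
-/

set_option autoImplicit false
set_option linter.dupNamespace false

namespace Cfsg.Agent.H751.Two.E8

open Cfsg Subgroup Cfsg.Lie Cfsg.Agent.H751.Two.Code Cfsg.Agent.H751.Two.Cert Cfsg.Agent.H751.Two.Frame
  Cfsg.Agent.H751.Two.Bits Cfsg.Agent.H751.Two.Word Cfsg.Agent.ChevalleyStructure.Elts Cfsg.Agent.H818.Gen

universe u

/-- the first further element -/
def x1 : List ℕ := DataE8.xw.getD 0 []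
def f1 : List ℕ := T 2 ++ (T 3).reverse
def f2 : List ℕ := T 1 ++ T 3

theorem c_x1_0 : eqW (T 0 ++ x1) (x1 ++ T 0) = true := by decide +kernel
theorem c_x1_1 : eqW (f1 ++ x1) (x1 ++ f1) = true := by decide +kernel
theorem c_x1_2 : eqW (f2 ++ x1) (x1 ++ f2) = true := by decide +kernel

/-- the letters of the relation -/
def uu1 : List ℕ := x1 ++ ([77, 35] ++ (x1 ++ ([35, 77] ++ x1)))

theorem c_rel1 : eqW ([104] ++ (uu1 ++ ([104] ++ uu1))) [51] = true := by decide +kernel

variable {F : Type u} [Field F] [Finite F]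

theorem x1_mem [CharP F 2] : wg hD F x1 ∈ GamP 7 hD F T 4 := by
  have : Fact (Nat.Prime 7) := ⟨by norm_num⟩
  have h0 : el hD F T 0 ∈ Seven.Pt (el hD F T) 4 := el_mem (by norm_num)
  have h1 : el hD F T 1 ∈ Seven.Pt (el hD F T) 4 := el_mem (by norm_num)
  have h2 : el hD F T 2 ∈ Seven.Pt (el hD F T) 4 := el_mem (by norm_num)
  have h3 : el hD F T 3 ∈ Seven.Pt (el hD F T) 4 := el_mem (by norm_num)
  have e1 : wg hD F f1 = el hD F T 2 * (el hD F T 3)⁻¹ := by
    show wg hD F (T 2 ++ (T 3).reverse) = wg hD F (T 2) * (wg hD F (T 3))⁻¹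
    rw [wg_append, wg_inv]
  have e2 : wg hD F f2 = el hD F T 1 * el hD F T 3 := wg_append hD F _ _
  refine (fr F).word_mem (a := 3) (by norm_num) (F0 := {el hD F T 0, wg hD F f1, wg hD F f2}) ?_ ?_ ?_
  · rintro f (rfl | rfl | rfl)
    · exact h0
    · rw [e1]; exact mul_mem h2 (inv_mem h3)
    · rw [e2]; exact mul_mem h1 h3
  · have g0 : el hD F T 0 ∈ closure ({el hD F T 0, wg hD F f1, wg hD F f2} : Set ↥(chevE8.group F)) ⊔
        zpowers (el hD F T 3) := mem_sup_left (subset_closure (Or.inl rfl))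
    have g1 : wg hD F f1 ∈ closure ({el hD F T 0, wg hD F f1, wg hD F f2} : Set ↥(chevE8.group F)) ⊔
        zpowers (el hD F T 3) := mem_sup_left (subset_closure (Or.inr (Or.inl rfl)))
    have g2 : wg hD F f2 ∈ closure ({el hD F T 0, wg hD F f1, wg hD F f2} : Set ↥(chevE8.group F)) ⊔
        zpowers (el hD F T 3) := mem_sup_left (subset_closure (Or.inr (Or.inr rfl)))
    have g3 : el hD F T 3 ∈ closure ({el hD F T 0, wg hD F f1, wg hD F f2} : Set ↥(chevE8.group F)) ⊔
        zpowers (el hD F T 3) := mem_sup_right (mem_zpowers _)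
    intro j hj
    have hj' : j = 0 ∨ j = 1 ∨ j = 2 ∨ j = 3 := by omega
    rcases hj' with rfl | rfl | rfl | rfl
    · exact g0
    · have q : el hD F T 1 = wg hD F f2 * (el hD F T 3)⁻¹ := by rw [e2, mul_inv_cancel_right]
      rw [q]; exact mul_mem g2 (inv_mem g3)
    · have q : el hD F T 2 = wg hD F f1 * el hD F T 3 := by rw [e1, inv_mul_cancel_right]
      rw [q]; exact mul_mem g1 g3
    · exact g3
  · rintro f (rfl | rfl | rfl)
    · exact commute_of_eq hD F (eq_of_eqW c_x1_0)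
    · exact commute_of_eq hD F (eq_of_eqW c_x1_1)
    · exact commute_of_eq hD F (eq_of_eqW c_x1_2)

theorem fiftyone_mem [CharP F 2] : wg hD F [51] ∈ GamP 7 hD F T 4 := by
  have h104 : wg hD F [104] ∈ GamP 7 hD F T 4 := root_mem (i := 1) (by norm_num) (by decide)
  have h77 : wg hD F [77] ∈ GamP 7 hD F T 4 := root_mem (i := 1) (by norm_num) (by decide)
  have h35 : wg hD F [35] ∈ GamP 7 hD F T 4 := root_mem (i := 3) (by norm_num) (by decide)
  have ha : wg hD F [77, 35] ∈ GamP 7 hD F T 4 := by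
    have : wg hD F [77, 35] = wg hD F [77] * wg hD F [35] := wg_append hD F [77] [35]
    rw [this]; exact mul_mem h77 h35
  have hb : wg hD F [35, 77] ∈ GamP 7 hD F T 4 := by
    have : wg hD F [35, 77] = wg hD F [35] * wg hD F [77] := wg_append hD F [35] [77]
    rw [this]; exact mul_mem h35 h77
  have hx := x1_mem (F := F)
  have hu : wg hD F uu1 ∈ GamP 7 hD F T 4 := by
    unfold uu1
    rw [wg_append, wg_append, wg_append, wg_append]
    exact mul_mem hx (mul_mem ha (mul_mem hx (mul_mem hb hx)))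
  have h : wg hD F [51] = wg hD F ([104] ++ (uu1 ++ ([104] ++ uu1))) := Subtype.ext (eq_of_eqW c_rel1).symm
  rw [h, wg_append, wg_append, wg_append]
  exact mul_mem h104 (mul_mem hu (mul_mem h104 hu))

end Cfsg.Agent.H751.Two.E8
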