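import Cfsg.Agent.H751.Two.Cert
import Cfsg.Agent.H70.OutCount

/-!
# Words of order `p` in the factors of a subsystem (helper751, S2187, `q = 2`)

`T i` (`i < n`) : words of order `p` in pairwise commuting factors; `KR i` : the roots of the `i`-th factor.
`P = ⟨T 0, …, T (n - 1)⟩` is elementary abelian of order at least `p ^ n`, and `Γ(P)` contains all root elements of
the factors.
-/

set_option autoImplicit false

namespace Cfsg.Agent.H751.Two.Frame

open Cfsg Subgroup Cfsg.Lie Cfsg.Agent.H751.Two.Code Cfsg.Agent.H751.Two.Cert Cfsg.Agent.H751.Two.Seven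
  Cfsg.Agent.ChevalleyStructure.Elts Cfsg.Agent.H818.Gen

universe u

/-- the word `w ^ k` -/
def rep (k : ℕ) (w : List ℕ) : List ℕ :=
  match k with
  | 0 => []
  | k + 1 => w ++ rep k w

section

variable {D : ChevalleyDatum} (hD : InList D) (K : Type u) [Field K]

theorem wG_rep (k : ℕ) (w : List ℕ) : wG hD K (rep k w) = wG hD K w ^ k := by
  induction k with
  | zero => rw [pow_zero]; rfl
  | succ k ih =>
    have : rep (k + 1) w = w ++ rep k w := rfl
    rw [this, wG_append, ih, pow_succ']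

theorem wg_pow_eq_one {k : ℕ} {w : List ℕ} (h : wG hD K (rep k w) = wG hD K []) : wg hD K w ^ k = 1 := by
  apply Subtype.ext
  show (wG hD K w) ^ k = 1
  rw [← wG_rep, h, wG_nil]

theorem commute_of_eq {a b : List ℕ} (h : wG hD K (a ++ b) = wG hD K (b ++ a)) : Commute (wg hD K a) (wg hD K b) := by
  apply Subtype.ext
  show wG hD K a * wG hD K b = wG hD K b * wG hD K a
  rw [← wG_append, ← wG_append, h]

theorem not_commute_of_ne {a b : List ℕ} (h : wG hD K (a ++ b) ≠ wG hD K (b ++ a)) :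
    ¬ Commute (wg hD K a) (wg hD K b) := by
  intro h1
  apply h
  rw [wG_append, wG_append]
  exact congrArg Subtype.val h1.eq

end

section

variable {D : ChevalleyDatum} (hD : InList D) (K : Type u) [Field K] [Finite K] {p : ℕ} [hp : Fact p.Prime]

/-- the words `T i` of order `p` in pairwise commuting factors -/
structure Fr (p n : ℕ) (T : ℕ → List ℕ) (KR : ℕ → List ℕ) (y : ℕ → ℕ) : Prop where
  tt : ∀ i < n, ∀ j < n, i ≠ j → okCW D (T i) (T j) = true
  tk : ∀ i < n, ∀ j < n, i ≠ j → okCW D (T i) (KR j) = true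
  pw : ∀ i < n, wG hD K (rep p (T i)) = wG hD K []
  mem : ∀ i < n, y i ∈ KR i
  ne : ∀ i < n, wG hD K (T i ++ [y i]) ≠ wG hD K ([y i] ++ T i)

/-- the elements -/
def el (T : ℕ → List ℕ) (i : ℕ) : ↥(D.group K) := wg hD K (T i)

variable {hD K} {n : ℕ} {T KR : ℕ → List ℕ} {y : ℕ → ℕ}

omit [Finite K] hp in
theorem Fr.commute (h : Fr hD K p n T KR y) {i j : ℕ} (hi : i < n) (hj : j < n) :
    Commute (el hD K T i) (el hD K T j) := by
  by_cases hij : i = j
  · rw [hij]
  · exact commute_wg hD K (h.tt i hi j hj hij)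

omit [Finite K] hp in
theorem commute_sub {v w : List ℕ} {r : ℕ} (h : okCW D v w = true) (hr : r ∈ w) : Commute (wg hD K v) (wg hD K [r]) := by
  refine commute_wg hD K ?_
  unfold okCW at h ⊢
  rw [List.all_eq_true] at h ⊢
  intro a ha
  rw [List.all_cons, List.all_nil, Bool.and_true]
  exact List.all_eq_true.1 (h a ha) r hr

omit [Finite K] hp in
theorem Fr.elab (h : Fr hD K p n T KR y) : IsElementaryAbelian p (Pt (el hD K T) n) :=
  elab_Pt (fun i hi => wg_pow_eq_one hD K (h.pw i hi)) (fun _ hi _ hj => h.commute hi hj)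

theorem Fr.card_le (h : Fr hD K p n T KR y) : p ^ n ≤ Nat.card (Pt (el hD K T) n) := by
  refine card_Pt (y := fun i => wg hD K [y i]) (fun i hi => wg_pow_eq_one hD K (h.pw i hi))
    (fun _ hi _ hj => h.commute hi hj) ?_ ?_
  · intro i hi j hj hji
    exact commute_sub (h.tk j hj i hi hji) (h.mem i hi)
  · intro i hi
    exact not_commute_of_ne hD K (h.ne i hi)

/-- `Γ(P)` -/
noncomputable def GamP (p : ℕ) (hD : InList D) (K : Type u) [Field K] (T : ℕ → List ℕ) (n : ℕ) : Subgroup ↥(D.group K) :=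
  Gam p ((Pt (el hD K T) n).map (MulAut.conj : ↥(D.group K) →* MulAut ↥(D.group K)))

theorem Fr.p_le (h : Fr hD K p n T KR y) (hn : n ≠ 0) : p ≤ Nat.card (Pt (el hD K T) n) :=
  (Nat.le_self_pow hn p).trans h.card_le

/-- `Γ(P)` contains the root elements of the factors -/
theorem Fr.root_mem (h : Fr hD K p n T KR y) {i r : ℕ} (hi : i < n) (hr : r ∈ KR i) :
    wg hD K [r] ∈ GamP p hD K T n := by
  refine mem_Gam_of_ne (Cfsg.Agent.H70.OutCount.center_eq_bot hD) h.elab (h.p_le (by omega)) hi ?_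
  intro j hj hji
  exact commute_sub (h.tk j hj i hi hji) hr

/-- `Γ(P)` contains the elements commuting with a set `F0` of words with `P = ⟨F0, a⟩` -/
theorem Fr.word_mem (h : Fr hD K p n T KR y) {a : ℕ} (ha : a < n) {F0 : Set ↥(D.group K)}
    (hF : ∀ f ∈ F0, f ∈ Pt (el hD K T) n) (hs : ∀ j < n, el hD K T j ∈ closure F0 ⊔ zpowers (el hD K T a))
    {x : ↥(D.group K)} (hx : ∀ f ∈ F0, Commute f x) : x ∈ GamP p hD K T n :=
  mem_Gam_of_set (Cfsg.Agent.H70.OutCount.center_eq_bot hD) h.elab (h.p_le (by omega)) (mem_Pt ha) hF hs hx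

/-- the conclusion -/
theorem Fr.gen (h : Fr hD K p n T KR y) {m : ℕ} (hm : ¬ p ∣ m) (hout : Nat.card (Out ↥(D.group K)) = m)
    (hc : ¬ p ^ (n + 1) ∣ Nat.card ↥(D.group K)) (hG : GamP p hD K T n = ⊤) : Gen p ↥(D.group K) := by
  refine gen_of_sylow (Cfsg.Agent.H70.OutCount.center_eq_bot hD) ?_ h.elab h.card_le hc hG
  intro φ hφ
  have : Finite (Out ↥(D.group K)) := inferInstance
  have h1 : ((φ : MulAut ↥(D.group K)) : Out ↥(D.group K)) ^ p = 1 := by
    rw [← QuotientGroup.mk_pow, hφ, QuotientGroup.mk_one]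
  have h2 : ((φ : MulAut ↥(D.group K)) : Out ↥(D.group K)) = 1 := by
    rw [← orderOf_eq_one_iff]
    rcases (Nat.dvd_prime hp.out).1 (orderOf_dvd_of_pow_eq_one h1) with h3 | h3
    · exact h3
    · exfalso
      apply hm
      rw [← h3, ← hout]
      exact orderOf_dvd_natCard _
  exact (QuotientGroup.eq_one_iff φ).1 h2

end

end Cfsg.Agent.H751.Two.Frame
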