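import Cfsg.Agent.H240.GenTwF.Tools
import Cfsg.Agent.H522.Gen.OppGam
import Cfsg.Agent.H818.StrP.Opp
import Cfsg.Agent.H751.Two.Seven

/-!
# S2187: general criteria for `Gen p K`, `p` prime to `|Out K|` (helper751)

* `gen_of_not_sq` : `p ^ 2` does not divide `|K|`;
* `gen_of_noSP`   : `p ^ 3` does not divide `|K|`, `K` has no strongly `p`-embedded subgroup;
* `gen_of_index`  : `K` has a filtered root group datum in characteristic `r ≠ p` and a subgroup `P` of index prime to `p`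
  normalizing a nontrivial `r`-subgroup.
-/

set_option autoImplicit false
set_option linter.unusedSectionVars false

namespace Cfsg.Agent.H751.Two.Rank

open Cfsg Subgroup Cfsg.Agent.H818.Gen Cfsg.Agent.H818.StrP

universe u

variable {K : Type u} [Group K] [Finite K] {p : ℕ} [hp : Fact p.Prime]

/-- `p`-automorphisms are inner -/
theorem mem_inn (hout : ¬ p ∣ Nat.card (Out K)) {φ : MulAut K} (hφ : φ ^ p = 1) :
    φ ∈ (MulAut.conj : K →* MulAut K).range := by
  have h1 : ((φ : MulAut K) : Out K) ^ p = 1 := by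
    rw [← QuotientGroup.mk_pow, hφ, QuotientGroup.mk_one]
  have h2 : ((φ : MulAut K) : Out K) = 1 := by
    rw [← orderOf_eq_one_iff]
    rcases (Nat.dvd_prime hp.out).1 (orderOf_dvd_of_pow_eq_one h1) with h3 | h3
    · exact h3
    · exfalso
      apply hout
      rw [← h3]
      exact orderOf_dvd_natCard _
  exact (QuotientGroup.eq_one_iff φ).1 h2

theorem le_inn (hout : ¬ p ∣ Nat.card (Out K)) {E : Subgroup (MulAut K)} (hE : IsElementaryAbelian p E) :
    E ≤ (MulAut.conj : K →* MulAut K).range := fun φ hφ => mem_inn hout (hE.2 φ hφ)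

theorem card_comap (hz : center K = ⊥) {E : Subgroup (MulAut K)} (hI : E ≤ (MulAut.conj : K →* MulAut K).range) :
    Nat.card ↥(E.comap (MulAut.conj : K →* MulAut K)) = Nat.card E := by
  have h1 : (E.comap (MulAut.conj : K →* MulAut K)).map (MulAut.conj : K →* MulAut K) = E := map_comap_eq_self hI
  conv_rhs => rw [← h1]
  exact Nat.card_congr ((E.comap (MulAut.conj : K →* MulAut K)).equivMapOfInjective _ (Seven.conj_inj hz)).toEquiv

theorem card_dvd (hz : center K = ⊥) {E : Subgroup (MulAut K)} (hI : E ≤ (MulAut.conj : K →* MulAut K).range) :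
    Nat.card E ∣ Nat.card K := by
  rw [← card_comap hz hI]
  exact card_subgroup_dvd_card _

/-- `p ^ 2` does not divide `|K|` -/
theorem gen_of_not_sq (hz : center K = ⊥) (hout : ¬ p ∣ Nat.card (Out K)) (h : ¬ p ^ 2 ∣ Nat.card K) : Gen p K := by
  intro E hE hc
  exfalso
  apply h
  refine dvd_trans ?_ (card_dvd hz (le_inn hout hE))
  obtain ⟨n, hn⟩ := (elab_isPGroup hE).exists_card_eq
  rw [hn] at hc ⊢
  exact pow_dvd_pow p ((Nat.pow_le_pow_iff_right hp.out.one_lt).1 hc)

/-- **rank two** -/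
theorem gen_of_noSP [IsSimpleGroup K] (hna : ¬ IsMulCommutative K) (hout : ¬ p ∣ Nat.card (Out K))
    (h3 : ¬ p ^ 3 ∣ Nat.card K) (hno : NoSP p K) : Gen p K := by
  intro E hE hc
  have hz := H240.GenTwF.center_bot hna
  have hI := le_inn hout hE
  -- bounds of orders of `p`-subgroups of `Inn K`
  have hb : ∀ Q : Subgroup (MulAut K), Q ≤ (MulAut.conj : K →* MulAut K).range → IsPGroup p Q → Nat.card Q ≤ p ^ 2 := by
    intro Q hQI hQ
    obtain ⟨n, hn⟩ := hQ.exists_card_eq
    rw [hn]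
    refine Nat.pow_le_pow_right hp.out.pos ?_
    by_contra hcon
    push Not at hcon
    refine h3 ((pow_dvd_pow p hcon).trans ?_)
    rw [← hn]
    exact card_dvd hz hQI
  have hc2 : Nat.card E = p ^ 2 := le_antisymm (hb E hI (elab_isPGroup hE)) hc
  obtain ⟨x, hx1, hx⟩ : ∃ x : K, x ≠ 1 ∧ MulAut.conj x ∈ E := by
    have h1 : 1 < Nat.card E := by
      rw [hc2]
      exact Nat.one_lt_pow two_ne_zero hp.out.one_lt
    have hnt : Nontrivial ↥E := (Finite.one_lt_card_iff_nontrivial).1 h1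
    obtain ⟨φ, hφ, hφ1⟩ := (Subgroup.nontrivial_iff_exists_ne_one E).1 hnt
    obtain ⟨x, hx⟩ := hI hφ
    refine ⟨x, ?_, by rw [hx]; exact hφ⟩
    rintro rfl
    apply hφ1
    rw [← hx, map_one]
  have hsup : (MulAut.conj : K →* MulAut K).range ⊔ E = (MulAut.conj : K →* MulAut K).range := sup_eq_left.2 hI
  refine H240.GenTwF.Gam_eq_top_of_noSP hna hE hc2 hx1 hx ?_ ?_
  · intro Q hQ hQp hEQ y hy _
    rw [hsup] at hQ
    have h4 : E = Q := eq_of_le_of_card_ge hEQ (by rw [hc2]; exact hb Q hQ hQp)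
    rwa [h4]
  · rw [hsup]
    exact noSP_congr (MonoidHom.ofInjective (Seven.conj_inj hz)) hno

/-- **a local subgroup of index prime to `p`** -/
theorem gen_of_index [IsSimpleGroup K] {r : ℕ} [hr : Fact r.Prime] (hG : KFacts.RgdFilt.HasFilt r K)
    (hc : ∃ a b : K, a * b ≠ b * a) (hpr : p ≠ r) (hz : center K = ⊥) (hout : ¬ p ∣ Nat.card (Out K))
    {V : Subgroup K} (hV : IsPGroup r V) (hV1 : V ≠ ⊥) {P : Subgroup K} (hP : P ≤ normalizer (V : Set K))
    (hidx : ¬ p ∣ P.index) : Gen p K := by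
  intro E hE hE2
  have hI := le_inn hout hE
  have hE0 : (E.comap (MulAut.conj : K →* MulAut K)).map MulAut.conj = E := map_comap_eq_self hI
  have hE0p : IsPGroup p ↥(E.comap (MulAut.conj : K →* MulAut K)) :=
    (elab_isPGroup hE).comap_of_injective _ (Seven.conj_inj hz)
  obtain ⟨y, hy⟩ := Opp.exists_conj_le_of_index P hidx hE0p
  refine H522.Gen.gam_of_filt hG hc hpr hE hE2 (K := V.map (MulAut.conj y⁻¹).toMonoidHom) (hV.map _) ?_ ?_
  · rw [Ne, Subgroup.map_eq_bot_iff_of_injective _ (MulAut.conj y⁻¹).injective]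
    exact hV1
  · intro α hα
    obtain ⟨e, rfl⟩ := hI hα
    have h1 : y * e * y⁻¹ ∈ normalizer (V : Set K) := hP (hy ⟨e, hα, rfl⟩)
    -- `e` normalizes `y⁻¹ V y`
    have h2 : V.map (MulAut.conj (y * e * y⁻¹)).toMonoidHom = V := by
      ext v
      constructor
      · rintro ⟨w, hw, rfl⟩
        exact (mem_normalizer_iff.1 h1 w).1 hw
      · intro hv
        refine ⟨(y * e * y⁻¹)⁻¹ * v * (y * e * y⁻¹), ?_, ?_⟩
        · rw [SetLike.mem_coe, mem_normalizer_iff.1 h1]
          have : y * e * y⁻¹ * ((y * e * y⁻¹)⁻¹ * v * (y * e * y⁻¹)) * (y * e * y⁻¹)⁻¹ = v := by group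
          rwa [this]
        · show (y * e * y⁻¹) * ((y * e * y⁻¹)⁻¹ * v * (y * e * y⁻¹)) * (y * e * y⁻¹)⁻¹ = v
          group
    have h3 : (V.map (MulAut.conj y⁻¹).toMonoidHom).map (MulAut.conj e).toMonoidHom =
        (V.map (MulAut.conj (y * e * y⁻¹)).toMonoidHom).map (MulAut.conj y⁻¹).toMonoidHom := by
      rw [Subgroup.map_map, Subgroup.map_map]
      congr 1
      ext v
      show e * (y⁻¹ * v * y⁻¹⁻¹) * e⁻¹ = y⁻¹ * ((y * e * y⁻¹) * v * (y * e * y⁻¹)⁻¹) * y⁻¹⁻¹
      group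
    rw [h3, h2]

end Cfsg.Agent.H751.Two.Rank
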