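import Cfsg.Agent.H751.Two.Rank
import Cfsg.Agent.H751.Two.E6
import Cfsg.Agent.H751.Two.E7
import Cfsg.Agent.H751.Two.E8
import Cfsg.Agent.H810.StrP.F4Two
import Cfsg.Agent.H810.StrP.TwE6Two
import Cfsg.Agent.H549.RV.E8Two
import Cfsg.Agent.H184.StrD4
import Cfsg.Agent.S1054
import Cfsg.Agent.S1062
import Cfsg.Agent.S1064
import Cfsg.Agent.S1066
import Cfsg.Agent.S1067
import Cfsg.Agent.S1070
import Cfsg.Agent.S1071
import Cfsg.Agent.S2122
import Cfsg.Agent.S2124
import Cfsg.Agent.S2129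
import Cfsg.Agent.S2130

/-!
# S2187: the exceptional groups with `q = 2`, `p ≥ 7` (helper751)

`gen_f4_two`, `gen_e6_two`, `gen_e7_two`, `gen_e8_two`, `gen_te6_two`, `gen_td4_two`.
-/

set_option autoImplicit false
set_option maxRecDepth 100000

namespace Cfsg.Agent.H751.Two.Rows

open Cfsg Subgroup Cfsg.Lie Cfsg.Agent.H818.Gen Cfsg.Agent.H751.Two.Rank

/-- the product of the prime powers in a list -/
def val : List (ℕ × ℕ) → ℕ
  | [] => 1
  | (q, e) :: l => q ^ e * val l

theorem not_dvd_val {l : List (ℕ × ℕ)} {p : ℕ} (hp : p.Prime) (hl : ∀ x ∈ l, x.1.Prime) (h : ∀ x ∈ l, x.1 ≠ p) :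
    ¬ p ∣ val l := by
  induction l with
  | nil => exact fun h => hp.one_lt.ne' (Nat.dvd_one.1 h)
  | cons x l ih =>
    obtain ⟨q, e⟩ := x
    intro h1
    rcases (hp.dvd_mul).1 h1 with h2 | h2
    · have h3 := hp.dvd_of_dvd_pow h2
      exact h (q, e) (by simp) ((Nat.prime_dvd_prime_iff_eq hp (hl (q, e) (by simp))).1 h3).symm
    · exact ih (fun x hx => hl x (by simp [hx])) (fun x hx => h x (by simp [hx])) h2

theorem mem_of_sq_dvd {l : List (ℕ × ℕ)} {p : ℕ} (hp : p.Prime) (hl : ∀ x ∈ l, x.1.Prime)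
    (hd : (l.map fun x => x.1).Nodup) (h : p ^ 2 ∣ val l) : ∃ e, (p, e) ∈ l ∧ 2 ≤ e := by
  induction l with
  | nil =>
    have h1 : p ∣ 1 := (dvd_pow_self p two_ne_zero).trans h
    exact absurd (Nat.dvd_one.1 h1) hp.one_lt.ne'
  | cons x l ih =>
    obtain ⟨q, e⟩ := x
    rw [List.map_cons, List.nodup_cons] at hd
    by_cases hq : q = p
    · subst hq
      refine ⟨e, by simp, ?_⟩
      have h1 : ¬ q ∣ val l := not_dvd_val hp (fun x hx => hl x (by simp [hx])) (fun x hx hxq => hd.1 (by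
        rw [← hxq]
        exact List.mem_map.2 ⟨x, hx, rfl⟩))
      have h2 : q ^ 2 ∣ q ^ e := (Nat.Coprime.dvd_of_dvd_mul_right
        (Nat.Coprime.pow_left 2 ((Nat.Prime.coprime_iff_not_dvd hp).2 h1)) (show q ^ 2 ∣ q ^ e * val l from h))
      exact (Nat.pow_dvd_pow_iff_le_right hp.one_lt).1 h2
    · have h2 : p ^ 2 ∣ val l := (Nat.Coprime.dvd_of_dvd_mul_left
        (Nat.Coprime.pow_left 2 ((Nat.Prime.coprime_iff_not_dvd hp).2 fun h3 =>
          hq ((Nat.prime_dvd_prime_iff_eq hp (hl (q, e) (by simp))).1 (hp.dvd_of_dvd_pow h3)).symm))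
        (show p ^ 2 ∣ q ^ e * val l from h))
      obtain ⟨e', h3, h4⟩ := ih (fun x hx => hl x (by simp [hx])) hd.2 h2
      exact ⟨e', by simp [h3], h4⟩

/-- the primes in the orders -/
def prs : List ℕ := [2, 3, 5, 7, 11, 13, 17, 19, 31, 41, 43, 73, 127, 151, 241, 331]

theorem prime_prs : ∀ q ∈ prs, q.Prime := by
  intro q hq
  simp only [prs, List.mem_cons, List.not_mem_nil, or_false] at hq
  rcases hq with h | h | h | h | h | h | h | h | h | h | h | h | h | h | h | h <;> rw [h] <;> norm_num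

/-- the primes `≥ 7` whose square divides a group order -/
theorem mem_of_sq {N p : ℕ} (hp : p.Prime) (h7 : 7 ≤ p) (l : List (ℕ × ℕ)) (hl : ∀ q ∈ l, q.1 ∈ prs)
    (hd : (l.map fun x => x.1).Nodup) (hK : N = val l) (s : List ℕ)
    (hs : ∀ x ∈ l, 2 ≤ x.2 → 7 ≤ x.1 → x.1 ∈ s) (h : p ^ 2 ∣ N) : p ∈ s := by
  rw [hK] at h
  obtain ⟨e, h1, h2⟩ := mem_of_sq_dvd hp (fun x hx => prime_prs _ (hl x hx)) hd h
  exact hs (p, e) h1 h2 h7

theorem fact_two : Fact (Nat.Prime 2) := ⟨Nat.prime_two⟩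

section chev

variable {F : Type} [Field F] (hF : Nat.card F = 2) {p : ℕ} (hp : p.Prime) (h7 : 7 ≤ p)

include hF hp h7

/-- **`F₄(2)`** -/
theorem gen_f4_two : Gen p ↥(chevF4.group F) := by
  have : Finite F := Nat.finite_of_card_ne_zero (by rw [hF]; norm_num)
  have hft := Fintype.ofFinite F
  have : CharP F 2 := Cfsg.Agent.H810.StrP.charP_two hF
  have := fact_two
  have : Fact p.Prime := ⟨hp⟩
  have hF' : Fintype.card F = 2 := by rw [← Nat.card_eq_fintype_card, hF]
  obtain ⟨hs, hna⟩ := Cfsg.Agent.S1054.result (F := F) chevF4 (by simp)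
  have hz := H240.GenTwF.center_bot hna
  have hout : Nat.card (Out ↥(chevF4.group F)) = 2 :=
    (Cfsg.Agent.S2122.result (F := F) 2 1 (by rw [hF', pow_one])).trans (by norm_num)
  have ho : ¬ p ∣ Nat.card (Out ↥(chevF4.group F)) := by
    rw [hout]; exact fun h => absurd (Nat.le_of_dvd (by norm_num) h) (by omega)
  have hc : Nat.card ↥(chevF4.group F) = val [(2, 24), (3, 6), (5, 2), (7, 2), (13, 1), (17, 1)] :=
    (Cfsg.Agent.S1062.result (F := F) hF').trans (by norm_num [val])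
  by_cases hsq : p ^ 2 ∣ Nat.card ↥(chevF4.group F)
  · have h := mem_of_sq hp h7 _ (by decide) (by decide) hc [7] (by decide) hsq
    rw [List.mem_singleton] at h
    subst h
    exact gen_of_noSP hna ho (by rw [hc]; norm_num [val]) (Cfsg.Agent.H810.StrP.F4Two.noSP7 hF)
  · exact gen_of_not_sq hz ho hsq

/-- **`E₆(2)`** -/
theorem gen_e6_two : Gen p ↥(chevE6.group F) := by
  have : Finite F := Nat.finite_of_card_ne_zero (by rw [hF]; norm_num)
  have hft := Fintype.ofFinite F
  have : CharP F 2 := Cfsg.Agent.H810.StrP.charP_two hF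
  have := fact_two
  have : Fact p.Prime := ⟨hp⟩
  have hF' : Fintype.card F = 2 := by rw [← Nat.card_eq_fintype_card, hF]
  obtain ⟨hs, hna⟩ := Cfsg.Agent.S1054.result (F := F) chevE6 (by simp)
  have hz := H240.GenTwF.center_bot hna
  have hout : Nat.card (Out ↥(chevE6.group F)) = 2 :=
    (Cfsg.Agent.S2123.result (F := F) 2 1 (by rw [hF', pow_one])).trans (by norm_num)
  have ho : ¬ p ∣ Nat.card (Out ↥(chevE6.group F)) := by
    rw [hout]; exact fun h => absurd (Nat.le_of_dvd (by norm_num) h) (by omega)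
  have hc : Nat.card ↥(chevE6.group F) = val [(2, 36), (3, 6), (5, 2), (7, 3), (13, 1), (17, 1), (31, 1), (73, 1)] := by
    have h := Cfsg.Agent.S1063.result (F := F) hF'
    rw [show Nat.gcd 3 (2 - 1) = 1 by decide, one_mul] at h
    exact h.trans (by norm_num [val])
  by_cases hsq : p ^ 2 ∣ Nat.card ↥(chevE6.group F)
  · have h := mem_of_sq hp h7 _ (by decide) (by decide) hc [7] (by decide) hsq
    rw [List.mem_singleton] at h
    subst h
    exact E6.gen_E6_two hF
  · exact gen_of_not_sq hz ho hsq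

/-- **`E₇(2)`** -/
theorem gen_e7_two : Gen p ↥(chevE7.group F) := by
  have : Finite F := Nat.finite_of_card_ne_zero (by rw [hF]; norm_num)
  have hft := Fintype.ofFinite F
  have : CharP F 2 := Cfsg.Agent.H810.StrP.charP_two hF
  have := fact_two
  have : Fact p.Prime := ⟨hp⟩
  have hF' : Fintype.card F = 2 := by rw [← Nat.card_eq_fintype_card, hF]
  obtain ⟨hs, hna⟩ := Cfsg.Agent.S1054.result (F := F) chevE7 (by simp)
  have hz := H240.GenTwF.center_bot hna
  have hout : Nat.card (Out ↥(chevE7.group F)) = 1 :=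
    (Cfsg.Agent.S2124.result (F := F) 2 1 (by rw [hF', pow_one])).trans (by norm_num)
  have ho : ¬ p ∣ Nat.card (Out ↥(chevE7.group F)) := by
    rw [hout]; exact fun h => absurd (Nat.le_of_dvd (by norm_num) h) (by omega)
  have hc : Nat.card ↥(chevE7.group F) = val [(2, 63), (3, 11), (5, 2), (7, 3), (11, 1), (13, 1), (17, 1), (19, 1),
      (31, 1), (43, 1), (73, 1), (127, 1)] := by
    have h := Cfsg.Agent.S1064.result (F := F) hF'
    rw [show Nat.gcd 2 (2 - 1) = 1 by decide, one_mul] at h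
    exact h.trans (by norm_num [val])
  by_cases hsq : p ^ 2 ∣ Nat.card ↥(chevE7.group F)
  · have h := mem_of_sq hp h7 _ (by decide) (by decide) hc [7] (by decide) hsq
    rw [List.mem_singleton] at h
    subst h
    exact E7.gen_E7_two hF
  · exact gen_of_not_sq hz ho hsq

/-- **`E₈(2)`** -/
theorem gen_e8_two : Gen p ↥(chevE8.group F) := by
  have : Finite F := Nat.finite_of_card_ne_zero (by rw [hF]; norm_num)
  have hft := Fintype.ofFinite F
  have : CharP F 2 := Cfsg.Agent.H810.StrP.charP_two hF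
  have := fact_two
  have : Fact p.Prime := ⟨hp⟩
  have hF' : Fintype.card F = 2 := by rw [← Nat.card_eq_fintype_card, hF]
  obtain ⟨hs, hna⟩ := Cfsg.Agent.S1054.result (F := F) chevE8 (by simp)
  have hz := H240.GenTwF.center_bot hna
  have hout : Nat.card (Out ↥(chevE8.group F)) = 1 :=
    Cfsg.Agent.S2125.result (F := F) 2 1 (by rw [hF', pow_one])
  have ho : ¬ p ∣ Nat.card (Out ↥(chevE8.group F)) := by
    rw [hout]; exact fun h => absurd (Nat.le_of_dvd (by norm_num) h) (by omega)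
  have hc : Nat.card ↥(chevE8.group F) = val [(2, 120), (3, 13), (5, 5), (7, 4), (11, 2), (13, 2), (17, 2), (19, 1),
      (31, 2), (41, 1), (43, 1), (73, 1), (127, 1), (151, 1), (241, 1), (331, 1)] :=
    (Cfsg.Agent.S1065.result (F := F) hF').trans (by norm_num [val])
  by_cases hsq : p ^ 2 ∣ Nat.card ↥(chevE8.group F)
  · have h := mem_of_sq hp h7 _ (by decide) (by decide) hc [7, 11, 13, 17, 31] (by decide) hsq
    simp only [List.mem_cons, List.not_mem_nil, or_false] at h
    rcases h with rfl | rfl | rfl | rfl | rfl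
    · exact E8.gen_E8_two hF
    · exact gen_of_noSP hna ho (by rw [hc]; norm_num [val]) (Cfsg.Agent.H549.RV.E8Two.noSP_11 hF')
    · exact gen_of_noSP hna ho (by rw [hc]; norm_num [val]) (Cfsg.Agent.H549.RV.E8Two.noSP_13 hF')
    · exact gen_of_noSP hna ho (by rw [hc]; norm_num [val]) (Cfsg.Agent.H549.RV.E8Two.noSP_17 hF')
    · exact gen_of_noSP hna ho (by rw [hc]; norm_num [val]) (Cfsg.Agent.H549.RV.E8Two.noSP_31 hF')
  · exact gen_of_not_sq hz ho hsq

end chev

section tw

/-- **`²E₆(2)`** -/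
theorem gen_te6_two {K : Type} [Field K] [Fintype K] (hK : Fintype.card K = 4) {p : ℕ} (hp : p.Prime) (h7 : 7 ≤ p) :
    Gen p ↥(twistedE6 K 2) := by
  have := fact_two
  have : Fact p.Prime := ⟨hp⟩
  have : CharP K 2 := by
    obtain ⟨q, hq⟩ := CharP.exists K
    have hqp : Fact q.Prime := ⟨CharP.char_is_prime K q⟩
    obtain ⟨n, -, h⟩ := FiniteField.card K q
    rw [hK] at h
    have h1 : q ∣ 2 ^ 2 := by rw [show 2 ^ 2 = 4 by norm_num, h]; exact dvd_pow_self q n.pos.ne'
    have h2 : q = 2 := (Nat.prime_dvd_prime_iff_eq hqp.out Nat.prime_two).1 (hqp.out.dvd_of_dvd_pow h1)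
    exact h2 ▸ hq
  obtain ⟨hs, hna⟩ := Cfsg.Agent.S1070.result (K := K) Nat.prime_two.isPrimePow (by rw [hK]; norm_num)
  have hz := H240.GenTwF.center_bot hna
  have hfin : Finite ↥(twistedE6 K 2) := inferInstance
  have hout : Nat.card (Out ↥(twistedE6 K 2)) = 6 := by
    have h := Cfsg.Agent.S2130.result (K := K) 2 1 (by rw [hK]; norm_num) le_rfl
    rw [pow_one] at h
    exact h.trans (by norm_num)
  have ho : ¬ p ∣ Nat.card (Out ↥(twistedE6 K 2)) := by
    rw [hout]; exact fun h => absurd (Nat.le_of_dvd (by norm_num) h) (by omega)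
  have hc : Nat.card ↥(twistedE6 K 2) = val [(2, 36), (3, 9), (5, 2), (7, 2), (11, 1), (13, 1), (17, 1), (19, 1)] := by
    have h := Cfsg.Agent.S1066.result (K := K) Nat.prime_two.isPrimePow (by rw [hK]; norm_num)
    rw [show Nat.gcd 3 (2 + 1) = 3 by decide] at h
    have h2 : 3 * Nat.card ↥(twistedE6 K 2) =
        3 * val [(2, 36), (3, 9), (5, 2), (7, 2), (11, 1), (13, 1), (17, 1), (19, 1)] := h.trans (by norm_num [val])
    exact Nat.eq_of_mul_eq_mul_left (by norm_num) h2
  by_cases hsq : p ^ 2 ∣ Nat.card ↥(twistedE6 K 2)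
  · have h := mem_of_sq hp h7 _ (by decide) (by decide) hc [7] (by decide) hsq
    rw [List.mem_singleton] at h
    subst h
    exact gen_of_noSP hna ho (by rw [hc]; norm_num [val]) (Cfsg.Agent.H810.StrP.TwE6Two.noSP7 hK)
  · exact gen_of_not_sq hz ho hsq

/-- **`³D₄(2)`** -/
theorem gen_td4_two {K : Type} [Field K] [Fintype K] (hK : Fintype.card K = 8) {p : ℕ} (hp : p.Prime) (h7 : 7 ≤ p) :
    Gen p ↥(twistedD4 K 2) := by
  have := fact_two
  have : Fact p.Prime := ⟨hp⟩
  have : CharP K 2 := by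
    obtain ⟨q, hq⟩ := CharP.exists K
    have hqp : Fact q.Prime := ⟨CharP.char_is_prime K q⟩
    obtain ⟨n, -, h⟩ := FiniteField.card K q
    rw [hK] at h
    have h1 : q ∣ 2 ^ 3 := by rw [show 2 ^ 3 = 8 by norm_num, h]; exact dvd_pow_self q n.pos.ne'
    have h2 : q = 2 := (Nat.prime_dvd_prime_iff_eq hqp.out Nat.prime_two).1 (hqp.out.dvd_of_dvd_pow h1)
    exact h2 ▸ hq
  obtain ⟨hs, hna⟩ := Cfsg.Agent.S1071.result (K := K) Nat.prime_two.isPrimePow (by rw [hK]; norm_num)
  have hz := H240.GenTwF.center_bot hna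
  have hfin : Finite ↥(twistedD4 K 2) := inferInstance
  have hout : Nat.card (Out ↥(twistedD4 K 2)) = 3 := by
    have h := Cfsg.Agent.S2129.result (K := K) 2 1 (by rw [hK]; norm_num) le_rfl
    rw [pow_one] at h
    exact h.trans (by norm_num)
  have ho : ¬ p ∣ Nat.card (Out ↥(twistedD4 K 2)) := by
    rw [hout]; exact fun h => absurd (Nat.le_of_dvd (by norm_num) h) (by omega)
  have hc : Nat.card ↥(twistedD4 K 2) = val [(2, 12), (3, 4), (7, 2), (13, 1)] :=
    (Cfsg.Agent.S1067.result (K := K) Nat.prime_two.isPrimePow (by rw [hK]; norm_num)).trans (by norm_num [val])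
  by_cases hsq : p ^ 2 ∣ Nat.card ↥(twistedD4 K 2)
  · have h := mem_of_sq hp h7 _ (by decide) (by decide) hc [7] (by decide) hsq
    rw [List.mem_singleton] at h
    subst h
    exact gen_of_noSP hna ho (by rw [hc]; norm_num [val]) (Cfsg.Agent.H184.StrD4.nosp_d4_7 hK)
  · exact gen_of_not_sq hz ho hsq

end tw

end Cfsg.Agent.H751.Two.Rows
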